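import Cfsg.Agent.H786.KW.Defs
import Cfsg.Agent.S0144

/-!
# TEAM KW (S4243), section 4: primes  (helper140)
-/

set_option autoImplicit false

namespace Cfsg.Agent.H786.KW

open Subgroup

variable {G : Type*} [Group G] [Finite G] {p : ℕ}

/-- in a finite cyclic group the elements `x` with `x ^ n = 1` are powers of any element of order `n` -/
theorem mem_zpowers_of_isCyclic {A : Type*} [Group A] [Finite A] [IsCyclic A] {n : ℕ} (hn : 0 < n) {x y : A}
    (hy : orderOf y = n) (hx : x ^ n = 1) : x ∈ zpowers y := by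
  classical
  have := Fintype.ofFinite A
  have h1 := IsCyclic.card_pow_eq_one_le (α := A) (n := n) hn
  have h2 : (Finset.univ.filter fun a : A => a ∈ zpowers y) ⊆ Finset.univ.filter fun a : A => a ^ n = 1 := by
    intro a ha
    rw [Finset.mem_filter] at ha ⊢
    refine ⟨Finset.mem_univ _, ?_⟩
    obtain ⟨k, rfl⟩ := mem_zpowers_iff.1 ha.2
    rw [← zpow_natCast, ← zpow_mul, mul_comm, zpow_mul, zpow_natCast, ← hy, pow_orderOf_eq_one, one_zpow]
  have h3 : (Finset.univ.filter fun a : A => a ∈ zpowers y).card = n := by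
    rw [← hy, ← Nat.card_zpowers y]
    rw [Nat.card_eq_fintype_card, Fintype.card_subtype]
  have h4 := Finset.eq_of_subset_of_card_le h2 (by rw [h3]; exact h1)
  have h5 : x ∈ Finset.univ.filter fun a : A => a ^ n = 1 := Finset.mem_filter.2 ⟨Finset.mem_univ _, hx⟩
  rw [← h4] at h5
  exact (Finset.mem_filter.1 h5).2

/-- T1 -/
theorem Sat.mem_of_cyclic [hp0 : Fact p.Prime] {H : Subgroup G} (h : Sat p H)
    (hc : ∀ P : Sylow p G, IsCyclic (P : Subgroup G))
    (hp : p ∣ Nat.card H) {x : G} (hx : orderOf x = p) : x ∈ H := by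
  have hpx : IsPGroup p (zpowers x) := by
    rw [IsPGroup.iff_card]
    exact ⟨1, by rw [Nat.card_zpowers, hx, pow_one]⟩
  obtain ⟨P, hP⟩ := hpx.exists_le_sylow
  have hxP : x ∈ (P : Subgroup G) := hP (mem_zpowers x)
  -- `p` divides `|H ∩ P|`
  have h1 : p ∣ Nat.card ((P : Subgroup G).subgroupOf H) := by
    have h2 := ((P : Subgroup G).subgroupOf H).card_mul_index
    have h3 : p ∣ Nat.card ((P : Subgroup G).subgroupOf H) * ((P : Subgroup G).subgroupOf H).index := by
      rw [h2]; exact hp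
    exact (hp0.out.dvd_mul.1 h3).resolve_right (h P)
  obtain ⟨y, hy⟩ := exists_prime_orderOf_dvd_card' p h1
  have hyG : orderOf ((y : H) : G) = p := by
    rw [Subgroup.orderOf_coe, Subgroup.orderOf_coe, hy]
  have hyP : ((y : H) : G) ∈ (P : Subgroup G) := y.2
  have := hc P
  have h4 := mem_zpowers_of_isCyclic (A := (P : Subgroup G)) (n := p) hp0.out.pos (x := ⟨x, hxP⟩)
    (y := ⟨((y : H) : G), hyP⟩) (by rw [← Subgroup.orderOf_coe]; exact hyG)
    (by
      apply Subtype.ext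
      change x ^ p = 1
      rw [← hx, pow_orderOf_eq_one])
  obtain ⟨k, hk⟩ := mem_zpowers_iff.1 h4
  have h5 : x = ((y : H) : G) ^ k := by
    have h6 := congrArg (Subtype.val) hk
    simpa using h6.symm
  rw [h5]
  exact H.zpow_mem (y : H).2 k

theorem isCyclic_sylow [Fact p.Prime] (P : Sylow p G) (hc : IsCyclic (P : Subgroup G)) (Q : Sylow p G) :
    IsCyclic (Q : Subgroup G) := by
  have e := P.equiv Q
  exact isCyclic_of_surjective e.toMonoidHom e.surjective

theorem Sat.not_dvd_of_cyclic [hp0 : Fact p.Prime] [IsSimpleGroup G] {H : Subgroup G} (h : Sat p H) (hH : H ≠ ⊤)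
    (P : Sylow p G) (hc : IsCyclic (P : Subgroup G)) : ¬ p ∣ Nat.card H := by
  intro hp
  have h1 := fun x => h.mem_of_cyclic (isCyclic_sylow P hc) hp (x := x)
  have h2 : normalClosure {x : G | orderOf x = p} ≤ H := by
    rw [normalClosure, closure_le]
    intro y hy
    rw [Group.mem_conjugatesOfSet_iff] at hy
    obtain ⟨x, hx, hxy⟩ := hy
    obtain ⟨g, hg⟩ := isConj_iff.1 hxy
    refine h1 y ?_
    rw [← hg]
    have : orderOf (MulAut.conj g x) = orderOf x := orderOf_injective (MulAut.conj g).toMonoidHom (MulAut.conj g).injective x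
    rw [MulAut.conj_apply] at this
    rw [this]; exact hx
  obtain ⟨y, hy⟩ := exists_prime_orderOf_dvd_card' p (hp.trans (card_subgroup_dvd_card H))
  rcases IsSimpleGroup.eq_bot_or_eq_top_of_normal (normalClosure {x : G | orderOf x = p}) normalClosure_normal
    with h3 | h3
  · have h4 : y ∈ normalClosure {x : G | orderOf x = p} := subset_normalClosure hy
    rw [h3, mem_bot] at h4
    rw [h4, orderOf_one] at hy
    exact hp0.out.one_lt.ne hy
  · rw [h3] at h2
    exact hH (top_le_iff.1 h2)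

theorem Sat.not_dvd_of_sq [hp0 : Fact p.Prime] [IsSimpleGroup G] {H : Subgroup G} (h : Sat p H) (hH : H ≠ ⊤)
    (hsq : ¬ p ^ 2 ∣ Nat.card G) : ¬ p ∣ Nat.card H := by
  have P : Sylow p G := default
  refine h.not_dvd_of_cyclic hH P ?_
  have h1 := P.card_eq_multiplicity
  have h2 : (Nat.card G).factorization p ≤ 1 := by
    by_contra h3
    exact hsq ((pow_dvd_pow p (by omega)).trans (Nat.ordProj_dvd (Nat.card G) p))
  have h3 : Nat.card (P : Subgroup G) ∣ p := by
    have h1' : Nat.card (P : Subgroup G) = p ^ (Nat.card G).factorization p := h1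
    rw [h1']
    calc p ^ (Nat.card G).factorization p ∣ p ^ 1 := pow_dvd_pow p h2
      _ = p := pow_one p
  exact isCyclic_of_card_dvd_prime (p := p) h3

/-- every prime of `G` divides the index -/
theorem All.dvd_index [IsSimpleGroup G] {H : Subgroup G} (h : All H) (hH : H ≠ ⊤) (hp : p.Prime)
    (hG : p ∣ Nat.card G) : p ∣ H.index := by
  have : Fact p.Prime := ⟨hp⟩
  by_contra hn
  have h1 : ∀ P : Sylow p G, (P : Subgroup G) ≤ H := by
    intro P
    have h2 : ¬ p ∣ ((P : Subgroup G) ⊓ H).index := by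
      have h3 : ((P : Subgroup G) ⊓ H).relIndex H * H.index = ((P : Subgroup G) ⊓ H).index :=
        relIndex_mul_index inf_le_right
      rw [← h3, hp.dvd_mul, inf_relIndex_right]
      rintro (h4 | h4)
      · exact h p hp P h4
      · exact hn h4
    have h5 : H.relIndex (P : Subgroup G) ∣ ((P : Subgroup G) ⊓ H).index := by
      have h6 : ((P : Subgroup G) ⊓ H).relIndex (P : Subgroup G) * (P : Subgroup G).index
          = ((P : Subgroup G) ⊓ H).index := relIndex_mul_index inf_le_left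
      rw [inf_relIndex_left] at h6
      exact ⟨_, h6.symm⟩
    have h7 : H.relIndex (P : Subgroup G) ∣ Nat.card (P : Subgroup G) := index_dvd_card (H.subgroupOf (P : Subgroup G))
    obtain ⟨k, hk⟩ := (IsPGroup.iff_card (p := p) (G := (P : Subgroup G))).1 P.isPGroup'
    rw [hk] at h7
    obtain ⟨j, -, hj⟩ := (Nat.dvd_prime_pow hp).1 h7
    have h8 : j = 0 := by
      by_contra hj0
      exact h2 ((hj ▸ dvd_pow_self p hj0).trans h5)
    rw [h8, pow_zero] at hj
    exact relIndex_eq_one.1 hj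
  have P : Sylow p G := default
  have h2 : normalClosure ((P : Subgroup G) : Set G) ≤ H := by
    rw [normalClosure, closure_le]
    intro y hy
    rw [Group.mem_conjugatesOfSet_iff] at hy
    obtain ⟨x, hx, hxy⟩ := hy
    obtain ⟨g, hg⟩ := isConj_iff.1 hxy
    have h3 : y ∈ ((g • P : Sylow p G) : Subgroup G) := by
      rw [← hg]
      exact ⟨x, hx, rfl⟩
    exact h1 (g • P) h3
  rcases IsSimpleGroup.eq_bot_or_eq_top_of_normal (normalClosure ((P : Subgroup G) : Set G)) normalClosure_normal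
    with h3 | h3
  · have h4 : (P : Subgroup G) ≤ ⊥ := h3 ▸ (subset_normalClosure (s := ((P : Subgroup G) : Set G)))
    have h5 : Nat.card (P : Subgroup G) = 1 := by
      rw [le_bot_iff.1 h4]; exact Subgroup.card_bot
    have h6 := P.dvd_card_of_dvd_card hG
    have h7 : p ∣ Nat.card (P : Subgroup G) := h6
    rw [h5] at h7
    exact hp.one_lt.ne' (Nat.dvd_one.1 h7)
  · rw [h3] at h2
    exact hH (top_le_iff.1 h2)

/-- a number with at most two prime divisors -/
theorem eq_two_primes {n r s : ℕ} (hn : n ≠ 0) (hrs : r ≠ s) (h : ∀ q : ℕ, q.Prime → q ∣ n → q = r ∨ q = s) :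
    n = r ^ n.factorization r * s ^ n.factorization s := by
  have h1 := Nat.prod_factorization_pow_eq_self hn
  rw [Finsupp.prod_of_support_subset (s := {r, s})] at h1
  · rw [Finset.prod_pair hrs] at h1
    exact h1.symm
  · intro q hq
    rw [Nat.support_factorization, Nat.mem_primeFactors] at hq
    rw [Finset.mem_insert, Finset.mem_singleton]
    exact h q hq.1 hq.2.1
  · intro i _
    exact pow_zero i

theorem exists_prime_other {L : Type*} [Group L] [Finite L] [IsSimpleGroup L] (h : ¬ IsMulCommutative L) {r s : ℕ}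
    (hr : r.Prime) (hs : s.Prime) (hrs : r ≠ s) : ∃ q : ℕ, q.Prime ∧ q ≠ r ∧ q ≠ s ∧ q ∣ Nat.card L := by
  by_contra hn
  push Not at hn
  have h1 := eq_two_primes (n := Nat.card L) Nat.card_pos.ne' hrs (fun q hq hqL => by
    by_contra h2
    push Not at h2
    exact hn q hq h2.1 h2.2 hqL)
  have h2 := Cfsg.Agent.S0144.result r s _ _ hr hs h1
  have h3 := IsSimpleGroup.comm_iff_isSolvable.2 h2
  exact h ⟨⟨h3⟩⟩

theorem exists_prime_ge_five {L : Type*} [Group L] [Finite L] [IsSimpleGroup L] (h : ¬ IsMulCommutative L) :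
    ∃ q : ℕ, q.Prime ∧ 5 ≤ q ∧ q ∣ Nat.card L := by
  obtain ⟨q, hq, h2, h3, hqL⟩ := exists_prime_other h Nat.prime_two Nat.prime_three (by norm_num)
  refine ⟨q, hq, ?_, hqL⟩
  by_contra hlt
  have h4 : q ≠ 4 := by
    rintro rfl
    norm_num at hq
  have h5 := hq.two_le
  omega

/-- two different odd primes -/
theorem exists_two_odd {L : Type*} [Group L] [Finite L] [IsSimpleGroup L] (h : ¬ IsMulCommutative L) :
    ∃ q r : ℕ, q.Prime ∧ r.Prime ∧ q ≠ r ∧ q ≠ 2 ∧ r ≠ 2 ∧ q ∣ Nat.card L ∧ r ∣ Nat.card L := by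
  obtain ⟨q, hq, hq5, hqL⟩ := exists_prime_ge_five h
  have hq2 : q ≠ 2 := by omega
  obtain ⟨r, hr, hr2, hrq, hrL⟩ := exists_prime_other h Nat.prime_two hq hq2.symm
  exact ⟨q, r, hq, hr, hrq.symm, hq2, hr2, hqL, hrL⟩

omit [Finite G] in
theorem relIndex_dvd_of_inter_le {H Y P : Subgroup G} (hYH : Y ≤ H) (hPY : P ⊓ H ≤ Y) :
    P.relIndex Y ∣ P.relIndex H := by
  have h1 : (P ⊓ H).relIndex Y * Y.relIndex H = (P ⊓ H).relIndex H := relIndex_mul_relIndex _ _ _ hPY hYH
  have h2 : (P ⊓ H).relIndex Y = P.relIndex Y := by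
    rw [← inf_relIndex_right (P ⊓ H) Y, ← inf_relIndex_right P Y]
    congr 1
    apply le_antisymm
    · exact le_inf (inf_le_left.trans inf_le_left) inf_le_right
    · exact le_inf (le_inf inf_le_left (inf_le_right.trans hYH)) inf_le_right
  rw [inf_relIndex_right, h2] at h1
  exact ⟨_, h1.symm⟩

/-- (PR') for a normal `p'`-subgroup -/
theorem Sat.commutator_mem_of_normal [hp0 : Fact p.Prime] {H N : Subgroup G} [N.Normal] (h : Sat p H)
    (hN : ¬ p ∣ Nat.card N) {P : Sylow p G} {x n : G} (hx : x ∈ H) (hxP : x ∈ P) (hnN : n ∈ N) :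
    x * n * x⁻¹ * n⁻¹ ∈ H := by
  obtain ⟨k, hk⟩ := (IsPGroup.iff_card (p := p) (G := (P : Subgroup G))).1 P.isPGroup'
  -- the group `P N`
  set M : Subgroup G := (P : Subgroup G) ⊔ N with hM
  set Y : Subgroup G := H ⊓ M with hY
  have hYH : Y ≤ H := inf_le_left
  have hindex : ∀ P0 : Sylow p G, (P0 : Subgroup G) ≤ M → ¬ p ∣ (P0 : Subgroup G).relIndex Y := by
    intro P0 h0 hd
    exact h P0 (hd.trans (relIndex_dvd_of_inter_le hYH (le_inf inf_le_right (inf_le_left.trans h0))))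
  have hpg : ∀ P0 : Sylow p G, IsPGroup p ((P0 : Subgroup G).subgroupOf Y) := by
    intro P0
    exact P0.isPGroup'.comap_of_injective Y.subtype Y.subtype_injective
  have hPM : (P : Subgroup G) ≤ M := le_sup_left
  have hP'M : ((n • P : Sylow p G) : Subgroup G) ≤ M := by
    rintro g ⟨z, hz, rfl⟩
    change n * z * n⁻¹ ∈ M
    exact M.mul_mem (M.mul_mem (le_sup_right (a := (P : Subgroup G)) hnN) (hPM hz))
      (M.inv_mem (le_sup_right (a := (P : Subgroup G)) hnN))
  obtain ⟨S1, hS1⟩ : ∃ S : Sylow p Y, (S : Subgroup Y) = (P : Subgroup G).subgroupOf Y :=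
    ⟨(hpg P).toSylow (hindex P hPM), rfl⟩
  obtain ⟨S2, hS2⟩ : ∃ S : Sylow p Y, (S : Subgroup Y) = ((n • P : Sylow p G) : Subgroup G).subgroupOf Y :=
    ⟨(hpg (n • P)).toSylow (hindex (n • P) hP'M), rfl⟩
  obtain ⟨y, hy⟩ := MulAction.exists_smul_eq Y S1 S2
  -- `Y = (Y ∩ N) (Y ∩ P)`
  have hsup : N.subgroupOf Y ⊔ (P : Subgroup G).subgroupOf Y = ⊤ := by
    have h1 : N.relIndex M ∣ p ^ k := by
      have h2 : N.relIndex M = N.relIndex (P : Subgroup G) := relIndex_sup_right (P : Subgroup G) N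
      rw [h2, ← hk]
      exact index_dvd_card (N.subgroupOf (P : Subgroup G))
    have h2 : N.relIndex Y ∣ N.relIndex M := by
      have h3 := relIndex_dvd_index_of_normal (N.subgroupOf M) (Y.subgroupOf M)
      rw [relIndex_subgroupOf (inf_le_right : Y ≤ M)] at h3
      exact h3
    have h4 : (N.subgroupOf Y ⊔ (P : Subgroup G).subgroupOf Y).index ∣ p ^ k :=
      ((index_dvd_of_le le_sup_left).trans h2).trans h1
    have h6 : (N.subgroupOf Y ⊔ (P : Subgroup G).subgroupOf Y).index ∣ (P : Subgroup G).relIndex Y :=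
      index_dvd_of_le le_sup_right
    obtain ⟨j, -, hj⟩ := (Nat.dvd_prime_pow hp0.out).1 h4
    have h7 : j = 0 := by
      by_contra hj0
      exact hindex P hPM ((hj ▸ dvd_pow_self p hj0).trans h6)
    rw [h7, pow_zero] at hj
    exact index_eq_one.1 hj
  have hy' : y ∈ N.subgroupOf Y ⊔ (P : Subgroup G).subgroupOf Y := hsup ▸ mem_top y
  obtain ⟨y0, hy0, q, hq, hqy⟩ := mem_sup_of_normal_left.1 hy'
  have hy0N : (y0 : G) ∈ N := hy0
  have hqP : (q : G) ∈ (P : Subgroup G) := hq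
  -- `y0 x y0⁻¹ ∈ P ^ n`
  have h1 : (y0 : G) * x * (y0 : G)⁻¹ ∈ ((n • P : Sylow p G) : Subgroup G) := by
    have hx1 : (⟨x, ⟨hx, hPM hxP⟩⟩ : Y) ∈ (P : Subgroup G).subgroupOf Y := hxP
    set x1 : Y := q⁻¹ * ⟨x, ⟨hx, hPM hxP⟩⟩ * q with hx1d
    have h2 : x1 ∈ (S1 : Subgroup Y) := by
      rw [hS1]
      exact mul_mem (mul_mem (inv_mem hq) hx1) hq
    have h3 : y * x1 * y⁻¹ ∈ (S2 : Subgroup Y) := by
      rw [← hy]
      exact ⟨x1, h2, rfl⟩
    have h4 : y * x1 * y⁻¹ = y0 * ⟨x, ⟨hx, hPM hxP⟩⟩ * y0⁻¹ := by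
      rw [← hqy, hx1d]; group
    rw [h4, hS2] at h3
    exact h3
  obtain ⟨z, hz, hzy⟩ := h1
  have hzy' : n * z * n⁻¹ = (y0 : G) * x * (y0 : G)⁻¹ := hzy
  have hzP : z ∈ (P : Subgroup G) := hz
  -- `m = n⁻¹ y0` commutes with `x`
  set m : G := n⁻¹ * (y0 : G) with hm
  have hmN : m ∈ N := N.mul_mem (N.inv_mem hnN) hy0N
  have hmz : m * x * m⁻¹ = z := by
    have h2 : z = n⁻¹ * (n * z * n⁻¹) * n := by group
    rw [h2, hzy', hm]; group
  have hbot : (P : Subgroup G) ⊓ N = ⊥ := by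
    apply (disjoint_iff).1
    apply disjoint_of_coprime_natCard
    rw [hk]
    exact Nat.Coprime.pow_left k ((Nat.Prime.coprime_iff_not_dvd hp0.out).2 hN)
  have h2 : m * x * m⁻¹ * x⁻¹ ∈ (P : Subgroup G) ⊓ N := by
    refine ⟨(P : Subgroup G).mul_mem (hmz ▸ hzP) ((P : Subgroup G).inv_mem hxP), ?_⟩
    have h3 : m * x * m⁻¹ * x⁻¹ = m * (x * m⁻¹ * x⁻¹) := by group
    rw [h3]
    exact N.mul_mem hmN (Normal.conj_mem ‹N.Normal› _ (N.inv_mem hmN) x)
  rw [hbot, mem_bot] at h2
  have h3 : n * x * n⁻¹ = (y0 : G) * x * (y0 : G)⁻¹ := by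
    have h4 : z = x := by
      rw [← hmz]
      exact mul_inv_eq_one.1 h2
    rw [← hzy', h4]
  have h4 : x * n * x⁻¹ * n⁻¹ = x * (n * x * n⁻¹)⁻¹ := by group
  rw [h4, h3]
  exact H.mul_mem hx (H.inv_mem (H.mul_mem (H.mul_mem (hYH y0.2) hx) (H.inv_mem (hYH y0.2))))

/-- inheritance to a subgroup containing a Sylow subgroup (self-contained version) -/
theorem Sat.subgroupOf_of_sylow_le [hp0 : Fact p.Prime] {H : Subgroup G} (h : Sat p H) {K : Subgroup G} {P : Sylow p G}
    (hP : (P : Subgroup G) ≤ K) : Sat p (H.subgroupOf K) := by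
  intro P1
  have h1 : IsPGroup p ((P1 : Subgroup K).map K.subtype) := P1.isPGroup'.map K.subtype
  obtain ⟨P2, hP2⟩ := h1.exists_le_sylow
  have h2 : Nat.card (P1 : Subgroup K) = Nat.card (P : Subgroup G) := by
    rw [P1.card_eq_multiplicity, P.card_eq_multiplicity]
    congr 1
    have h3 : Nat.card G = Nat.card K * K.index := (card_mul_index K).symm
    have h4 : ¬ p ∣ K.index := fun h5 => P.not_dvd_index (h5.trans (index_dvd_of_le hP))
    rw [h3, Nat.factorization_mul Nat.card_pos.ne' index_ne_zero_of_finite, Finsupp.add_apply,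
      Nat.factorization_eq_zero_of_not_dvd h4, add_zero]
  have h3 : (P1 : Subgroup K).map K.subtype = (P2 : Subgroup G) := by
    apply SetLike.coe_injective
    apply Set.eq_of_subset_of_ncard_le hP2
    change Nat.card (P2 : Subgroup G) ≤ Nat.card ((P1 : Subgroup K).map K.subtype)
    rw [Subgroup.card_map_of_injective K.subtype_injective, h2, P.card_eq_multiplicity, P2.card_eq_multiplicity]
  have h4 : (P1 : Subgroup K) = (P2 : Subgroup G).subgroupOf K := by
    rw [← h3]
    exact (comap_map_eq_self_of_injective K.subtype_injective _).symm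
  have h5 : H.subgroupOf K = (H ⊓ K).subgroupOf K := (inf_subgroupOf_right H K).symm
  rw [h4, h5, relIndex_subgroupOf inf_le_right]
  intro h6
  refine h P2 (h6.trans (relIndex_dvd_of_inter_le inf_le_left (le_inf inf_le_right ?_)))
  refine inf_le_left.trans ?_
  rw [← h3]
  exact map_subtype_le _

/-- (PR') `P ≤ K`, `N ⊴ K` a `p'`-group: the commutators of `H ∩ P` and `N` lie in `H` -/
theorem Sat.commutator_mem [hp0 : Fact p.Prime] {H : Subgroup G} (h : Sat p H) {K N : Subgroup G} (hNK : N ≤ K)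
    (hn : K ≤ normalizer (N : Set G)) (hN : ¬ p ∣ Nat.card N) {P : Sylow p G}
    (hP : (P : Subgroup G) ≤ K) {x n : G} (hx : x ∈ H) (hxP : x ∈ P) (hnN : n ∈ N) : x * n * x⁻¹ * n⁻¹ ∈ H := by
  have hnorm : (N.subgroupOf K).Normal := (normal_subgroupOf_iff_le_normalizer hNK).2 hn
  have h1 := h.subgroupOf_of_sylow_le hP
  have h2 : ¬ p ∣ Nat.card (N.subgroupOf K) := by
    rwa [Nat.card_congr (subgroupOfEquivOfLe hNK).toEquiv]
  have h3 := h1.commutator_mem_of_normal h2 (P := P.subtype hP) (x := ⟨x, hP hxP⟩) (n := ⟨n, hNK hnN⟩) hx hxP hnN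
  exact h3

end Cfsg.Agent.H786.KW
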