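import Cfsg.Agent.H786.KW.Primes
import Cfsg.Agent.S0205

/-!
# TEAM KW (S4243), section 4: even order  (helper140)
-/

set_option autoImplicit false

namespace Cfsg.Agent.H786.KW

theorem even_card {L : Type*} [Group L] [Finite L] [IsSimpleGroup L] (h : ¬ IsMulCommutative L) : 2 ∣ Nat.card L := by
  by_contra h2
  have h1 : Odd (Nat.card L) := Nat.not_even_iff_odd.1 fun h3 => h2 h3.two_dvd
  have h3 := IsSimpleGroup.comm_iff_isSolvable.2 (Cfsg.Agent.S0205.result h1)
  exact h ⟨⟨h3⟩⟩

end Cfsg.Agent.H786.KW
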